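import Mathlib
import Cfsg.Agent.H963.PQR.GTwo
import Cfsg.Agent.S2101

/-!
# The row `G₂(q)` of S3988 (helper963)

`G₂(3)`, `p = 7`: a triple of type `(7, 2, 3)`, the element of order 8 of `SL₃(3)` has a centraliser of order prime to 3.
-/

set_option autoImplicit false

namespace Cfsg.Agent.H963.PQR

open Cfsg Cfsg.Lie Cfsg.Agent.H562.PQR Cfsg.Agent.H161.Oct
open Matrix (SpecialLinearGroup ProjectiveSpecialLinearGroup)

universe u

section Eight

variable {F : Type u} [Field F]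

/-- the matrix of order 8 -/
def yP (F : Type u) [Field F] : Matrix (Fin 3) (Fin 3) F := !![0, 1, 0; 1, 1, 0; 0, 0, -1]

theorem yP_det : (yP F).det = 1 := by
  rw [det3]
  simp [yP]

/-- the element of order 8 of `SL₃(3)` -/
def yS (F : Type u) [Field F] : SpecialLinearGroup (Fin 3) F := ⟨yP F, yP_det⟩

theorem y_apply (x : V F) : slM F (yS F) x = ![x 0, x 2, x 1 + x 2, -x 3, -x 4 + x 5, x 4, -x 6, x 7] := by
  rw [slM_apply]
  apply ext8
  · rw [slF0]; rfl
  · rw [slF1]; simp [yS, yP]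
  · rw [slF2]; simp [yS, yP]
  · rw [slF3]; simp [yS, yP]
  · rw [slF4]; simp [yS, yP]
  · rw [slF5]; simp [yS, yP]
  · rw [slF6]; simp [yS, yP]
  · rw [slF7]; rfl

theorem yS_pow (h3 : (3 : F) = 0) : yS F ^ 8 = 1 := by
  have h2 : yP F * yP F = !![1, 1, 0; 1, 2, 0; 0, 0, 1] := by
    ext i j
    fin_cases i <;> fin_cases j <;> simp [yP, Matrix.mul_apply, Fin.sum_univ_three]
    norm_num
  have h4 : (yP F * yP F) * (yP F * yP F) = !![-1, 0, 0; 0, -1, 0; 0, 0, 1] := by
    rw [h2]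
    ext i j
    fin_cases i <;> fin_cases j <;> simp [Matrix.mul_apply, Fin.sum_univ_three]
    · linear_combination h3
    · linear_combination h3
    · linear_combination h3
    · linear_combination 2 * h3
  apply Subtype.ext
  rw [Matrix.SpecialLinearGroup.coe_pow]
  show yP F ^ 8 = 1
  have e : yP F ^ 8 = ((yP F * yP F) * (yP F * yP F)) * ((yP F * yP F) * (yP F * yP F)) := by noncomm_ring
  rw [e, h4]
  ext i j
  fin_cases i <;> fin_cases j <;> simp [Matrix.mul_apply, Fin.sum_univ_three]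

theorem yS_ne : yS F ≠ 1 := by
  intro h
  have h1 := congrArg (fun A : SpecialLinearGroup (Fin 3) F => A.1 0 1) h
  have h2 : (1 : F) = 0 := h1
  exact one_ne_zero h2

/-- **An automorphism of order dividing 3 commuting with `y` is trivial.** -/
theorem eq_one_of_comm (h3 : (3 : F) = 0) {g : V F ≃ₗ[F] V F} (hg : g ∈ AutO F)
    (hc : ∀ x, g (slM F (yS F) x) = slM F (yS F) (g x)) (h : g ^ 3 = 1) : g = 1 := by
  have hggg : ∀ x, g (g (g x)) = x := fun x => by
    have h1 := congrArg (fun f : V F ≃ₗ[F] V F => f x) h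
    exact h1
  have cube : ∀ a : F, a ^ 3 = 1 → a = 1 := by
    intro a ha
    have h1 : (a - 1) ^ 3 = 0 := by linear_combination ha - (a ^ 2 - a) * h3
    exact sub_eq_zero.1 (pow_eq_zero_iff (by norm_num) |>.1 h1)
  have two0 : ∀ a : F, a + a = 0 → a = 0 := by
    intro a ha
    linear_combination a * h3 - ha
  -- the fixed space
  have hfix : ∀ v : V F, slM F (yS F) v = v → v 1 = 0 ∧ v 2 = 0 ∧ v 3 = 0 ∧ v 4 = 0 ∧ v 5 = 0 ∧ v 6 = 0 := by
    intro v hv
    rw [y_apply] at hv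
    have e1 : v 2 = v 1 := congrFun hv 1
    have e2 : v 1 + v 2 = v 2 := congrFun hv 2
    have e3 : -v 3 = v 3 := congrFun hv 3
    have e4 : -v 4 + v 5 = v 4 := congrFun hv 4
    have e5 : v 4 = v 5 := congrFun hv 5
    have e6 : -v 6 = v 6 := congrFun hv 6
    have f1 : v 1 = 0 := by linear_combination e2
    have f4 : v 4 = 0 := by linear_combination -e4 - e5
    exact ⟨f1, e1.trans f1, two0 _ (by linear_combination -e3), f4, e5.symm.trans f4,
      two0 _ (by linear_combination -e6)⟩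
  have hye1 : slM F (yS F) e1 = e1 := by
    rw [y_apply]
    apply ext8 <;> simp [e1]
  have hge : slM F (yS F) (g e1) = g e1 := by rw [← hc, hye1]
  obtain ⟨f1, f2, f3, f4, f5, f6⟩ := hfix _ hge
  have htr := (tr_nm hg e1).1
  have hnm := (tr_nm hg e1).2
  have htr' : (g e1) 0 + (g e1) 7 = 1 := by
    have : tr (e1 : V F) = 1 := by simp [tr, e1]
    rw [this] at htr
    exact htr
  have hnm' : (g e1) 0 * (g e1) 7 = 0 := by
    have h0 : nm (e1 : V F) = 0 := by simp [nm, e1]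
    rw [h0] at hnm
    simp only [nm, f1, f2, f3] at hnm
    linear_combination hnm
  have he : g e1 = e1 := by
    rcases mul_eq_zero.1 hnm' with h0 | h7
    · exfalso
      have h7 : (g e1) 7 = 1 := by rw [h0, zero_add] at htr'; exact htr'
      have h8 : g e1 = o - e1 := by
        apply ext8
        · rw [h0]; simp [o, e1]
        · rw [f1]; simp [o, e1]
        · rw [f2]; simp [o, e1]
        · rw [f3]; simp [o, e1]
        · rw [f4]; simp [o, e1]
        · rw [f5]; simp [o, e1]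
        · rw [f6]; simp [o, e1]
        · rw [h7]; simp [o, e1]
      have h9 : g (g e1) = e1 := by
        rw [h8, map_sub, map_o hg, h8, sub_sub_cancel]
      have h10 := hggg e1
      rw [h9] at h10
      rw [h10] at h0
      have : (e1 : V F) 0 = 1 := by simp [e1]
      rw [this] at h0
      exact one_ne_zero h0
    · have h0 : (g e1) 0 = 1 := by rw [h7, add_zero] at htr'; exact htr'
      apply ext8
      · rw [h0]; simp [e1]
      · rw [f1]; simp [e1]
      · rw [f2]; simp [e1]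
      · rw [f3]; simp [e1]
      · rw [f4]; simp [e1]
      · rw [f5]; simp [e1]
      · rw [f6]; simp [e1]
      · rw [h7]; simp [e1]
  -- the three basis vectors
  obtain ⟨u0, hu0⟩ : ∃ u : V F, u = ![0, 1, 0, 0, 0, 0, 0, 0] := ⟨_, rfl⟩
  obtain ⟨u1, hu1⟩ : ∃ u : V F, u = ![0, 0, 1, 0, 0, 0, 0, 0] := ⟨_, rfl⟩
  obtain ⟨u2, hu2⟩ : ∃ u : V F, u = ![0, 0, 0, 1, 0, 0, 0, 0] := ⟨_, rfl⟩
  have hA : ∀ v : Fin 3 → F, (g (iA v)) 0 = 0 ∧ (g (iA v)) 4 = 0 ∧ (g (iA v)) 5 = 0 ∧ (g (iA v)) 6 = 0 ∧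
      (g (iA v)) 7 = 0 := by
    intro v
    have h1 := map_iA hg he v
    rw [iA_apply] at h1
    exact ⟨congrFun h1 0, congrFun h1 4, congrFun h1 5, congrFun h1 6, congrFun h1 7⟩
  have a0 : u0 = iA ![1, 0, 0] := by rw [hu0, iA_apply]; rfl
  have a1 : u1 = iA ![0, 1, 0] := by rw [hu1, iA_apply]; rfl
  have a2 : u2 = iA ![0, 0, 1] := by rw [hu2, iA_apply]; rfl
  have y0 : slM F (yS F) u0 = u1 := by
    rw [y_apply, hu0, hu1]
    apply ext8 <;> simp
  have y1 : slM F (yS F) u1 = u0 + u1 := by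
    rw [y_apply, hu0, hu1]
    apply ext8 <;> simp
  have y2 : slM F (yS F) u2 = -u2 := by
    rw [y_apply, hu2]
    apply ext8 <;> simp
  obtain ⟨p, hp⟩ : ∃ p, p = g u0 := ⟨_, rfl⟩
  obtain ⟨r, hr⟩ : ∃ r, r = g u2 := ⟨_, rfl⟩
  have hpz := hA ![1, 0, 0]
  have hrz := hA ![0, 0, 1]
  rw [← a0, ← hp] at hpz
  rw [← a2, ← hr] at hrz
  obtain ⟨p0, p4, p5, p6, p7⟩ := hpz
  obtain ⟨r0, r4, r5, r6, r7⟩ := hrz
  have hq : g u1 = ![0, p 2, p 1 + p 2, -p 3, 0, 0, 0, 0] := by
    rw [← y0, hc, ← hp, y_apply]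
    apply ext8 <;> simp [p0, p4, p5, p6, p7]
  have hpq : p + g u1 = slM F (yS F) (g u1) := by
    rw [← hc, y1, map_add, ← hp]
  rw [hq, y_apply] at hpq
  have p3 : p 3 = 0 := by
    have := congrFun hpq 3
    simp at this
    exact this.symm
  have hr' : -r = slM F (yS F) r := by
    rw [hr, ← hc, y2, map_neg]
  rw [y_apply] at hr'
  have r12 : -r 1 = r 2 := congrFun hr' 1
  have r21 : -r 2 = r 1 + r 2 := congrFun hr' 2
  have r1 : r 1 = 0 := by linear_combination (-2 : F) * r12 + r21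
  have r2 : r 2 = 0 := by rw [← r12, r1, neg_zero]
  have ep : p = p 1 • u0 + p 2 • u1 := by
    rw [hu0, hu1]
    apply ext8 <;> simp [p0, p3, p4, p5, p6, p7]
  have eq : g u1 = p 2 • u0 + (p 1 + p 2) • u1 := by
    rw [hq, hu0, hu1]
    apply ext8 <;> simp [p3]
  have er : r = r 3 • u2 := by
    rw [hu2]
    apply ext8 <;> simp [r0, r1, r2, r4, r5, r6, r7]
  obtain ⟨a, ha⟩ : ∃ a, a = p 1 := ⟨_, rfl⟩
  obtain ⟨b, hb⟩ : ∃ b, b = p 2 := ⟨_, rfl⟩
  obtain ⟨c, hc'⟩ : ∃ c, c = r 3 := ⟨_, rfl⟩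
  rw [← ha, ← hb] at ep eq
  rw [← hc'] at er
  rw [hp] at ep
  rw [hr] at er
  have g3 := hggg u0
  rw [ep, map_add, map_smul, map_smul, ep, eq, map_add, map_smul, map_smul, map_add, map_smul, map_smul, map_add,
    map_smul, map_smul, ep, eq] at g3
  have k1 := congrFun g3 1
  have k2 := congrFun g3 2
  rw [hu0, hu1] at k1 k2
  simp only [Pi.add_apply, Pi.smul_apply, smul_eq_mul] at k1 k2
  simp only [Matrix.cons_val_one, Matrix.cons_val, mul_one, mul_zero, add_zero, zero_add] at k1 k2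
  have hb0 : b = 0 := by
    have h1 : b ^ 3 = 0 := by linear_combination (-1 : F) * k2 + (a ^ 2 * b + a * b ^ 2 + b ^ 3) * h3
    exact pow_eq_zero_iff (by norm_num) |>.1 h1
  have ha1 : a = 1 := by
    apply cube
    rw [hb0] at k1
    linear_combination k1
  have g3' := hggg u2
  rw [er, map_smul, er, map_smul, map_smul, er] at g3'
  have k3 := congrFun g3' 3
  rw [hu2] at k3
  simp only [Pi.smul_apply, smul_eq_mul] at k3
  simp only [Matrix.cons_val, mul_one] at k3
  have hc1 : c = 1 := by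
    apply cube
    linear_combination k3
  rw [ha1, hb0, one_smul, zero_smul, add_zero] at ep
  rw [ha1, hb0, zero_smul, zero_add, add_zero, one_smul] at eq
  rw [hc1, one_smul] at er
  -- the other basis vectors
  have m01 : g (zornMul u0 u1) = zornMul u0 u1 := by rw [mem_AutO.1 hg, ep, eq]
  have m12 : g (zornMul u1 u2) = zornMul u1 u2 := by rw [mem_AutO.1 hg, eq, er]
  have m20 : g (zornMul u2 u0) = zornMul u2 u0 := by rw [mem_AutO.1 hg, er, ep]
  have n01 : zornMul u0 u1 = ![0, 0, 0, 0, 0, 0, 1, 0] := by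
    rw [hu0, hu1]
    apply ext8 <;> simp [mul0, mul1, mul2, mul3, mul4, mul5, mul6, mul7]
  have n12 : zornMul u1 u2 = ![0, 0, 0, 0, 1, 0, 0, 0] := by
    rw [hu1, hu2]
    apply ext8 <;> simp [mul0, mul1, mul2, mul3, mul4, mul5, mul6, mul7]
  have n20 : zornMul u2 u0 = ![0, 0, 0, 0, 0, 1, 0, 0] := by
    rw [hu2, hu0]
    apply ext8 <;> simp [mul0, mul1, mul2, mul3, mul4, mul5, mul6, mul7]
  rw [n01] at m01
  rw [n12] at m12
  rw [n20] at m20
  have m7 : g (o - e1) = o - e1 := by rw [map_sub, map_o hg, he]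
  apply LinearEquiv.ext
  intro x
  have hx : x = x 0 • e1 + x 1 • u0 + x 2 • u1 + x 3 • u2 + x 4 • ![0, 0, 0, 0, 1, 0, 0, 0] +
      x 5 • ![0, 0, 0, 0, 0, 1, 0, 0] + x 6 • ![0, 0, 0, 0, 0, 0, 1, 0] + x 7 • (o - e1) := by
    rw [hu0, hu1, hu2]
    apply ext8 <;> simp [e1, o]
  show g x = x
  rw [hx]
  simp only [map_add, map_smul, he, ep, eq, er, m01, m12, m20, m7]

end Eight

variable {F : Type} [Field F] [Fintype F]

/-- the element of order 8 has a centraliser of order prime to 3 -/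
theorem exists_eight (hF : Fintype.card F = 3) : ∃ y : ↥(chevG2.group F), PE 2 y ∧
    ¬ 3 ∣ Nat.card ↥(Subgroup.centralizer ({y} : Set ↥(chevG2.group F))) := by
  have h3 : (3 : F) = 0 := by
    have h1 : ((Fintype.card F : ℕ) : F) = 0 := by simp
    rw [hF] at h1
    exact_mod_cast h1
  obtain ⟨e⟩ := Cfsg.Agent.H148.Oct.nonempty_equiv F
  obtain ⟨y, hy⟩ : ∃ y : ↥(AutO F), y = ⟨slM F (yS F), slM_mem _⟩ := ⟨_, rfl⟩
  have hy8 : y ^ 8 = 1 := by
    apply Subtype.ext
    rw [Subgroup.coe_pow, hy]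
    show slM F (yS F) ^ 8 = 1
    rw [← map_pow, yS_pow h3, map_one]
  have hy1 : y ≠ 1 := by
    intro h
    have h1 : slM F (yS F) = 1 := by
      have := congrArg Subtype.val h
      rw [hy] at this
      exact this
    exact yS_ne (slM_inj (h1.trans (map_one _).symm))
  refine ⟨e y, ⟨fun h => hy1 (e.injective (h.trans (map_one e).symm)), ?_⟩, ?_⟩
  · rw [e.orderOf_eq]
    have h1 : orderOf y ∣ 2 ^ 3 := orderOf_dvd_of_pow_eq_one hy8
    obtain ⟨k, -, hk⟩ := (Nat.dvd_prime_pow Nat.prime_two).1 h1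
    exact ⟨k, hk⟩
  · intro hd
    have : Fact (Nat.Prime 3) := ⟨Nat.prime_three⟩
    obtain ⟨⟨u, hu⟩, huo⟩ := exists_prime_orderOf_dvd_card' 3 hd
    rw [Subgroup.orderOf_mk] at huo
    rw [Subgroup.mem_centralizer_singleton_iff] at hu
    have h1 : e.symm u * y = y * e.symm u := by
      apply e.injective
      rw [map_mul, map_mul, e.apply_symm_apply, hu]
    have h2 : (e.symm u) ^ 3 = 1 := by
      rw [← map_pow, ← huo, pow_orderOf_eq_one, map_one]
    have h3' : ((e.symm u : ↥(AutO F)) : V F ≃ₗ[F] V F) = 1 := by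
      refine eq_one_of_comm h3 (e.symm u).2 ?_ ?_
      · intro x
        have h4 := congrArg (fun f : ↥(AutO F) => (f : V F ≃ₗ[F] V F) x) h1
        rw [hy] at h4
        exact h4
      · exact congrArg Subtype.val h2
    have h5 : e.symm u = 1 := Subtype.ext h3'
    have h6 : u = 1 := by
      rw [← e.apply_symm_apply u, h5, map_one]
    rw [h6, orderOf_one] at huo
    norm_num at huo

theorem trip_g2_three (hF : Fintype.card F = 3) : Trip 7 ↥(chevG2.group F) := by
  have hcard := S1059.result (F := F) hF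
  have h7 : 7 ∣ Nat.card ↥(chevG2.group F) := by rw [hcard]; norm_num
  have : Fact (Nat.Prime 7) := ⟨by norm_num⟩
  obtain ⟨x, hx⟩ := exists_prime_orderOf_dvd_card' 7 h7
  obtain ⟨y, hy, hyc⟩ := exists_eight hF
  have hchar : CharP F 3 := by
    obtain ⟨r, hrc⟩ := CharP.exists F
    have hr : r.Prime := CharP.char_is_prime F r
    have hrF : r ∣ Fintype.card F := (CharP.cast_eq_zero_iff F r (Fintype.card F)).1 (by simp)
    rw [hF, Nat.prime_dvd_prime_iff_eq hr Nat.prime_three] at hrF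
    rwa [← hrF]
  obtain ⟨x', y', z', h4, h5, h6, h8⟩ := tri_char Nat.prime_three (lie_g2 3 (by omega)) (by norm_num : Nat.Prime 7)
    Nat.prime_two (by norm_num) (PE.of_orderOf (by norm_num) hx) hy
    (cent_six (by norm_num) (by norm_num) (by rw [hF]; norm_num) hx Nat.prime_three (by rw [hF])) hyc
  refine ⟨7, 2, 3, Or.inl rfl, Or.inr (Or.inl rfl), ?_⟩
  refine TripABC.of_mult (Cfsg.Agent.H80.Fpf.multDvd_of_cyclic (by norm_num) (S2101.result hF)) ?_ (by norm_num)
    Nat.prime_two Nat.prime_three (by norm_num) (by norm_num) (by norm_num) h4 h5 h6 h8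
  intro s hs hs3
  exact Or.inr (Or.inr (Or.inr ((Nat.prime_dvd_prime_iff_eq hs Nat.prime_three).1 hs3)))

/-- **The row `G₂(q)`, `q ≥ 3`.** -/
theorem rowOdd_chevG2 (h3 : 3 ≤ Fintype.card F) : RowOdd ↥(chevG2.group F) := by
  intro p hp hp2 hd
  rcases card_dvd_iff hp hd with h | ⟨hp3, h⟩
  · exact Or.inl (notMin_g2 hp h)
  · right
    rcases Nat.eq_or_lt_of_le h3 with h4 | h4
    · rw [← h4] at h
      have h7 : p = 7 := (Nat.prime_dvd_prime_iff_eq hp (by norm_num)).1 h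
      rw [h7]
      exact trip_g2_three h4.symm
    · exact trip_g2 h4 hp hp2 hp3 h

theorem row_G2 {S : Type u} [Group S] (h : Cfsg.Lie.IsoChevG2 S) : RowOdd S := by
  obtain ⟨F, _, _, h3, ⟨e⟩⟩ := h
  exact (rowOdd_chevG2 h3).congr e.symm

end Cfsg.Agent.H963.PQR
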