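import Cfsg.Agent.H378.TwAdj
import Cfsg.Agent.H378.RegTw

/-!
# Regular elements of prime order in groups of twisted type (helper963)

`reg_elt` : `σ` a twisted Frobenius automorphism of `D.group k`, `q = p ^ e`, `r ∤ |W|` a prime dividing the value at `q`
of a polynomial of the torus of type `w`, and the functional `λ` is nonzero modulo `r` at each root: an element of order
`r` of `Y^σ` whose centraliser has order prime to `p`.
-/

set_option autoImplicit false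
set_option linter.unusedSectionVars false

namespace Cfsg.Agent.H963.PQR.RegElt

open CoxeterSystem Cfsg Cfsg.Lie Cfsg.Lie.ChevalleyDatum
open Cfsg.Agent.ChevalleyStructure Cfsg.Agent.ChevalleyStructure.Elts Cfsg.Agent.ChevalleyStructure.CoxeterGeom
  Cfsg.Agent.ChevalleyStructure.CoxeterGeomTypes Cfsg.Agent.ChevalleyStructure.NPerm
open Cfsg.Agent.Tits.Roots Cfsg.Agent.Tits.Core Cfsg.Agent.Nodes Cfsg.Agent.Nodes.Reps Cfsg.Agent.Nodes.BNOf
  Cfsg.Agent.Nodes.RGDChev Cfsg.Agent.Nodes.Bruhat Cfsg.Agent.Nodes.SubComb Cfsg.Agent.Nodes.Coroot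
open Cfsg.Agent.KFacts.RgdField Cfsg.Agent.KFacts.RgdChevCoord Cfsg.Agent.BpExc.TorCent Cfsg.Agent.BpExc.TorChev
open Cfsg.Agent.GpExc.Field Cfsg.Agent.BpExc.Tow Cfsg.Agent.BpExc.TowChev Cfsg.Agent.BpExc.Fr
  Cfsg.Agent.BpExc.LangFr Cfsg.Agent.LangThm Cfsg.Agent.BpExc Cfsg.Agent.H129.TorusChar Cfsg.Agent.H129.TorusCent
  Cfsg.Agent.H129.TorusTw Cfsg.Agent.H129.TorusMain Cfsg.Agent.H493.PGTorus Cfsg.Agent.H493.PGTwist

universe u

section Alg

variable {D : ChevalleyDatum} {l : ℕ} {M : CoxeterMatrix (Fin l)} (hp : IsType D l M) {k : Type u} [Field k]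
  [IsAlgClosed k] {W : Type*} [Group W] (cs : CoxeterSystem M W) {p e : ℕ} [Fact p.Prime] [CharP k p]
  {σ : MulAut ↥(D.group k)} {g : (Fin l → ℤ) ≃+ (Fin l → ℤ)}

/-- **Torus elements of prime order**, with the kernel of the character. -/
theorem exists_t' (hσ : IsFrob p e σ) (F : Fr cs hp.isCartan (TT D k) (XX D l k) σ g) {d' : ℕ}
    {B' : Fin l → Fin l → ℤ} (hB : InvC D l d' B') (hd' : d' ≠ 0) {L : (Fin l → ℤ) →+ ℤ} {r : ℕ} (hr : r.Prime)
    (hrp : r ≠ p) (hL : ∀ x, (r : ℤ) ∣ L (g x) - ((p ^ e : ℕ) : ℤ) * L x) {x₀ : Fin l → ℤ} (hx₀ : ¬ (r : ℤ) ∣ L x₀) :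
    ∃ t ∈ TT D k, σ t = t ∧ orderOf t = r ∧ ∀ x, cX hp t x = 1 ↔ (r : ℤ) ∣ L x := by
  have := Fact.mk hr
  have hrk : (r : k) ≠ 0 := by
    rw [Ne, CharP.cast_eq_zero_iff k p]
    intro h
    exact hrp ((Nat.prime_dvd_prime_iff_eq (Fact.out : p.Prime) hr).1 h).symm
  have : NeZero (r : k) := ⟨hrk⟩
  obtain ⟨u, hu⟩ := HasEnoughRootsOfUnity.exists_primitiveRoot k r
  have hu0 : u ≠ 0 := hu.ne_zero hr.ne_zero
  have hMC : IsMC (fun x : Fin l → ℤ => u ^ L x) :=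
    ⟨by rw [map_zero, zpow_zero], fun x y => by rw [map_add, zpow_add₀ hu0]⟩
  obtain ⟨t, ht, hcX⟩ := exists_cX hp hB hd' hMC fun i =>
    IsAlgClosed.exists_pow_nat_eq _ (Nat.pos_of_ne_zero hd')
  have hone : ∀ z : ℤ, u ^ z = 1 ↔ (r : ℤ) ∣ z := fun z => hu.zpow_eq_one_iff_dvd z
  have hσt : σ t ∈ TT D k := (F.tor t).2 ht
  refine ⟨t, ht, ?_, ?_, fun x => ?_⟩
  · refine cX_inj hp hσt ht fun i => ?_
    have h1 : sr i = g (g.symm (sr i)) := (g.apply_symm_apply _).symm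
    rw [h1, cX_sigma hp cs hσ F ht, hcX, hcX, ← zpow_natCast, ← zpow_mul]
    obtain ⟨N, hN⟩ := hL (g.symm (sr i))
    have h2 : L (g (g.symm (sr i))) = L (g.symm (sr i)) * ((p ^ e : ℕ) : ℤ) + (r : ℤ) * N := by
      rw [← hN]; ring
    rw [h2, zpow_add₀ hu0, (hone ((r : ℤ) * N)).2 (dvd_mul_right _ _), mul_one]
  · refine orderOf_eq_prime ?_ ?_
    · refine cX_inj hp (pow_mem ht r) (one_mem _) fun i => ?_
      rw [cX_pow hp ht, cX_one, hcX, ← zpow_natCast, ← zpow_mul, hone]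
      exact dvd_mul_left _ _
    · intro h0
      apply hx₀
      rw [← hone, ← hcX, h0, cX_one]
  · rw [hcX]; exact hone _

include hp in
/-- a torus element of order dividing the characteristic is trivial -/
theorem eq_one_of_pow {t : ↥(D.group k)} (ht : t ∈ TT D k) (h : t ^ p = 1) : t = 1 := by
  refine cX_inj hp ht (one_mem _) fun i => ?_
  have h1 : cX hp t (sr i) ^ p = 1 := by rw [← cX_pow hp ht, h, cX_one]
  have h2 : (cX hp t (sr i) - 1) ^ p = 0 := by rw [sub_pow_char, h1, one_pow, sub_self]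
  rw [cX_one]
  exact sub_eq_zero.1 (pow_eq_zero_iff (Fact.out : p.Prime).ne_zero |>.1 h2)

/-- **Regular elements of prime order.** -/
theorem reg_elt [Finite W] (hk : LocFin k) (he : 0 < e) (hσ : IsFrob p e σ)
    (F : Fr cs hp.isCartan (TT D k) (XX D l k) σ g) {d' : ℕ} {B' : Fin l → Fin l → ℤ} (hB : InvC D l d' B')
    (hd' : d' ≠ 0) {G0 : Type*} [Group G0] [Finite G0] {e0 : G0 →* ↥(D.group k)} (he0 : Function.Injective e0)
    (hd : ∀ y, σ y = y → y ∈ e0.range)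
    {w : W} {Th : Fin l → Fin l → ℤ} (hw : ∀ j, rep cs hp.isCartan w (g (sr j)) = Th j)
    {f : ℕ} {c : Fin (f + 1) → ℤ} {V : Fin (f + 1) → Fin l → ℤ} {U : Fin l → ℤ}
    (h : EigOK (fun i j => Th j i) c V U) (hc : c 0 = 1 ∨ c 0 = -1)
    {r : ℕ} (hr : r.Prime) (hrW : ¬ r ∣ Nat.card W)
    (h1 : (r : ℤ) ∣ pv c ((p ^ e : ℕ) : ℤ))
    (hreg : ∀ a, IsRoot cs hp.isCartan a → ¬ (r : ℤ) ∣ lam V ((p ^ e : ℕ) : ℤ) a) :
    ∃ x : G0, orderOf x = r ∧ ¬ p ∣ Nat.card ↥(Subgroup.centralizer ({x} : Set G0)) := by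
  obtain ⟨n, z, hz, hσ', F'⟩ := exists_z hp cs hk he hσ F w
  obtain ⟨t, ht, h3, h4, h5⟩ := exists_t' hp cs hσ' F' hB hd' hr (ne_char hc Fact.out he h1) (hL_of_eig hp cs hw h h1)
    (x₀ := U) (by rw [lam_unit h]; exact H378.TwAdj.not_dvd_one hr)
  obtain ⟨x, hx⟩ := hd _ (fix_conj hz h3)
  have ho : ∀ y : ↥(D.group k), orderOf (z * y * z⁻¹) = orderOf y := fun y =>
    orderOf_injective (MulAut.conj z).toMonoidHom (MulAut.conj z).injective y
  have hxo : orderOf x = r := by rw [← orderOf_injective e0 he0 x, hx, ho, h4]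
  refine ⟨x, hxo, fun hdv => ?_⟩
  obtain ⟨u, hu⟩ := exists_prime_orderOf_dvd_card' p hdv
  have hux : u.1 * x = x * u.1 := (Subgroup.mem_centralizer_singleton_iff.1 u.2)
  have htr : t ^ r = 1 := by rw [← h4]; exact pow_orderOf_eq_one t
  have hy : (z⁻¹ * e0 u.1 * z) * t = t * (z⁻¹ * e0 u.1 * z) := by
    have h6 : e0 u.1 * (z * t * z⁻¹) = z * t * z⁻¹ * e0 u.1 := by rw [← hx, ← map_mul, ← map_mul, hux]
    calc (z⁻¹ * e0 u.1 * z) * t = z⁻¹ * (e0 u.1 * (z * t * z⁻¹)) * z := by group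
      _ = z⁻¹ * (z * t * z⁻¹ * e0 u.1) * z := by rw [h6]
      _ = _ := by group
  have hroot : ∀ a, IsRoot cs hp.isCartan a → ch hp a t ≠ 1 := by
    intro a ha h6
    refine hreg a ha ((h5 a).1 ?_)
    rw [cX_root hp cs ht ha, h6]
  have hmem := H378.Regular.mem_TT_of_comm hp cs ht hr hrW htr hroot hy hk p
  have hup : u.1 ^ p = 1 := by
    have h6 : u ^ p = 1 := by rw [← hu]; exact pow_orderOf_eq_one u
    exact congrArg Subtype.val h6
  have h7 : (z⁻¹ * e0 u.1 * z) ^ p = 1 := by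
    have h8 := conj_pow (a := z⁻¹) (b := e0 u.1) (i := p)
    rw [inv_inv] at h8
    rw [h8, ← map_pow, hup, map_one]; group
  have h9 := eq_one_of_pow hp hmem h7
  have h10 : e0 u.1 = 1 := by
    calc e0 u.1 = z * (z⁻¹ * e0 u.1 * z) * z⁻¹ := by group
      _ = 1 := by rw [h9]; group
  have h11 : u.1 = 1 := he0 (by rw [h10, map_one])
  have h12 : u = 1 := Subtype.ext h11
  rw [h12, orderOf_one] at hu
  exact (Fact.out : p.Prime).one_lt.ne hu

end Alg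

end Cfsg.Agent.H963.PQR.RegElt
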