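import Cfsg.Agent.H963.PQR.RegElt
import Cfsg.Agent.H493.PGD4T

/-!
# Regular elements of prime order in `³D₄(q)` (helper963)

`reg_twD4` : for a prime `r ∣ q² + q + 1`, `r ≠ 2, 3`, `³D₄(q)` has an element of order `r` whose centraliser has order
prime to `q`. The torus is `Z_{q²+q+1} × Z_{q²+q+1}` (a single chain of reflections; the data are machine-made).
-/

set_option autoImplicit false

namespace Cfsg.Agent.H963.PQR.TriDReg

open Cfsg Cfsg.Lie Cfsg.Lie.ChevalleyDatum Cfsg.Agent.H129 Cfsg.Agent.H129.WData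
open Cfsg.Agent.ChevalleyStructure Cfsg.Agent.ChevalleyStructure.CoxeterGeom
  Cfsg.Agent.ChevalleyStructure.CoxeterGeomTypes
open Cfsg.Agent.Tits.Roots Cfsg.Agent.Nodes Cfsg.Agent.Nodes.Reps Cfsg.Agent.Nodes.RGDChev
  Cfsg.Agent.H129.TorusUntw Cfsg.Agent.H129.TriD4 Cfsg.Agent.BpExc.TowChev Cfsg.Agent.BpExc.Tow
open Cfsg.Agent.H493.PGTorus Cfsg.Agent.H493.PGCyc Cfsg.Agent.H493.PG Cfsg.Agent.H493.PGD4T

universe u

/-- partial products -/
def chainS : List (Fin 4 × Mat 4) := [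
  (2, ![![-1, -1, 0, -1], ![0, -1, -1, 0], ![0, 1, 1, 1], ![0, 1, 0, 0]]),
  (0, ![![-1, -1, -1, -1], ![0, -1, 0, 0], ![0, 1, 0, 1], ![0, 1, 1, 0]]),
  (1, ![![0, -1, -1, -1], ![-1, -1, 0, 0], ![1, 1, 0, 1], ![1, 1, 1, 0]]),
  (3, ![![0, -1, -1, -1], ![-1, 0, 0, 0], ![1, 1, 0, 1], ![1, 1, 1, 0]]),
  (2, ![![0, -1, -1, 0], ![-1, 0, 0, 0], ![1, 1, 0, 0], ![1, 1, 1, 1]]),
  (0, ![![0, -1, 0, 0], ![-1, 0, 0, 0], ![1, 1, 1, 0], ![1, 1, 0, 1]]),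
  (1, ![![-1, -1, 0, 0], ![1, 0, 0, 0], ![0, 1, 1, 0], ![0, 1, 0, 1]]),
  (0, ![![-1, 0, 0, 0], ![1, 1, 0, 0], ![0, 0, 1, 0], ![0, 0, 0, 1]])]

theorem chainS_ok : ChainOK H493.PGD4T.Am chainS := by decide +kernel

/-- the matrix of the twisted element -/
def ThS : Mat 4 := ![![0, 1, 1, 1], ![0, -1, -1, 0], ![0, 1, 0, 0], ![-1, -1, 0, -1]]

theorem hThS : ∀ j, hd chainS (H493.PGD4T.pi j) = ThS j := by decide +kernel

/-- the functional -/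
def VS : Fin 2 → Fin 4 → ℤ := ![![1, 0, 1, -1], ![0, 1, 0, 0]]

theorem eigS : EigOK (fun i j => ThS j i) c3 VS ![1, 0, 0, 0] := by decide +kernel

/-- the norms of the values at the roots -/
theorem normS : ∀ r₀ : Fin 24,
    (∑ m, vec chevD4 4 r₀ m * VS 0 m) ^ 2 - (∑ m, vec chevD4 4 r₀ m * VS 0 m) * (∑ m, vec chevD4 4 r₀ m * VS 1 m) +
      (∑ m, vec chevD4 4 r₀ m * VS 1 m) ^ 2 = 1 ∨
    (∑ m, vec chevD4 4 r₀ m * VS 0 m) ^ 2 - (∑ m, vec chevD4 4 r₀ m * VS 0 m) * (∑ m, vec chevD4 4 r₀ m * VS 1 m) +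
      (∑ m, vec chevD4 4 r₀ m * VS 1 m) ^ 2 = 3 := by decide +kernel

theorem card_W : Nat.card coxeterD4.Group = 192 :=
  ChevalleyStructure.WeylData.certD4.card_group.trans ChevalleyStructure.WeylData.size_D4

theorem lam_two (V : Fin 2 → Fin 4 → ℤ) (q : ℤ) (x : Fin 4 → ℤ) :
    H493.PGTwist.lam V q x = (∑ m, x m * V 0 m) + (∑ m, x m * V 1 m) * q := by
  rw [H493.PGTwist.lam_apply, Finset.sum_mul, ← Finset.sum_add_distrib]
  refine Finset.sum_congr rfl fun m _ => ?_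
  have h1 : vval V q m = V 0 m + q * V 1 m := by
    show ∑ i : Fin 2, q ^ (i : ℕ) * V i m = _
    rw [Fin.sum_univ_two]
    simp
  rw [h1]
  ring

/-- **Regular elements of `³D₄(q)`.** -/
theorem reg_twD4 {K : Type u} [Field K] [Fintype K] {q : ℕ} (hq : IsPrimePow q) (hK : Fintype.card K = q ^ 3)
    {r : ℕ} (hr : r.Prime) (hr2 : r ≠ 2) (hr3 : r ≠ 3) (hrq : r ∣ q ^ 2 + q + 1) :
    ∃ p : ℕ, p.Prime ∧ p ∣ q ∧ ∃ x : ↥(twistedD4 K q), orderOf x = r ∧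
      ¬ p ∣ Nat.card ↥(Subgroup.centralizer ({x} : Set ↥(twistedD4 K q))) := by
  have := H493.PGD4T.finW
  have hfG : Finite ↥(twistedD4 K q) := by
    have h1 := Cfsg.Agent.S1067.result hq hK
    have h2 := hq.two_le
    have h3 : 1 < q ^ 2 := Nat.one_lt_pow (by norm_num) h2
    have h4 : 1 < q ^ 6 := Nat.one_lt_pow (by norm_num) h2
    refine Nat.finite_of_card_ne_zero ?_
    rw [h1]
    have h5 : 0 < q ^ 12 := pow_pos (by omega) _
    have h6 : 0 < q ^ 2 - 1 := by omega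
    have h7 : 0 < q ^ 6 - 1 := by omega
    positivity
  obtain ⟨p, e, hpF, hpk, he, hqe, hk⟩ := H493.PGD4T.setup hq hK
  have hqe' : (q : ℤ) = ((p ^ e : ℕ) : ℤ) := by rw [hqe]
  have hrq' : (r : ℤ) ∣ pv c3 ((p ^ e : ℕ) : ℤ) := by
    rw [← hqe', pv_c3]
    exact_mod_cast Int.natCast_dvd_natCast.2 hrq
  refine ⟨p, hpF.out, by rw [hqe]; exact dvd_pow_self p he.ne', ?_⟩
  refine RegElt.reg_elt RGDTwD4.hp coxeterD4.toCoxeterSystem hk he isFrob_tau (fr_tau _) TorusChar.invC_D4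
    (by norm_num) (embT_injective (algebraMap K (AlgebraicClosure K)) hq hK)
    (fun y hy => tau_range _ hqe hq hK hy) (H493.PGD4T.lin _ chainS_ok hThS) eigS (by decide) hr ?_ hrq' ?_
  · rw [card_W]
    intro h
    have h1 : r ∣ 2 ^ 6 * 3 := by norm_num; exact h
    rcases (hr.dvd_mul).1 h1 with h2 | h2
    · exact hr2 ((Nat.prime_dvd_prime_iff_eq hr Nat.prime_two).1 (hr.dvd_of_dvd_pow h2))
    · exact hr3 ((Nat.prime_dvd_prime_iff_eq hr Nat.prime_three).1 h2)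
  · intro a ha h
    obtain ⟨r₀, hr₀, rfl⟩ := (isRoot_iff RGDTwD4.hp coxeterD4.toCoxeterSystem a).1 ha
    rw [lam_two, ← hqe'] at h
    have hN := normS ⟨r₀, hr₀⟩
    simp only at hN
    set A := ∑ m, vec chevD4 4 r₀ m * VS 0 m
    set B := ∑ m, vec chevD4 4 r₀ m * VS 1 m
    have h2 : (r : ℤ) ∣ (q : ℤ) ^ 2 + q + 1 := by exact_mod_cast Int.natCast_dvd_natCast.2 hrq
    have h3 : (r : ℤ) ∣ A ^ 2 - A * B + B ^ 2 := by
      have e1 : A ^ 2 - A * B + B ^ 2 = (A + B * q) * (A - B - B * q) + B ^ 2 * ((q : ℤ) ^ 2 + q + 1) := by ring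
      rw [e1]
      exact dvd_add (Dvd.dvd.mul_right h _) (Dvd.dvd.mul_left h2 _)
    rcases hN with h4 | h4
    · rw [h4] at h3
      exact H378.TwAdj.not_dvd_one hr h3
    · rw [h4] at h3
      exact hr3 ((Nat.prime_dvd_prime_iff_eq hr Nat.prime_three).1 (by exact_mod_cast h3))

end Cfsg.Agent.H963.PQR.TriDReg
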