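import Mathlib
import Cfsg.Agent.H963.PQR.GTwo
import Cfsg.Agent.H963.PQR.TriDReg
import Cfsg.Agent.H378.TwRows
import Cfsg.Agent.H868.KTwD4
import Cfsg.Agent.TwoFusion.SLTwoFacts
import Cfsg.Agent.ClassicalGeometry.PSL2Basic
import Cfsg.Agent.S0276
import Cfsg.Agent.S2110

/-!
# The row `³D₄(q)` of S3988 (helper963)

* `notMin_td4` : `p ∣ q (q⁶ - 1)`, `p` odd: `SL₂(q³) → ³D₄(q)`;
* `trip_td4` : `p ∣ q⁴ - q² + 1`: a triple of type `(p, b, 2)`, `b ∣ q² + q + 1`.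
-/

set_option autoImplicit false

namespace Cfsg.Agent.H963.PQR

open Cfsg Cfsg.Lie Cfsg.Agent.H562.PQR Cfsg.Agent.H868
open Cfsg.Agent.H493.PGTorus Cfsg.Agent.H493.PGCyc
open Cfsg.Agent.H80.Fpf (IsCover MultDvd)
open Matrix (SpecialLinearGroup ProjectiveSpecialLinearGroup)

universe u

variable {K : Type} [Field K] [Fintype K] {q : ℕ}

/-- `SL₂(q³) → ³D₄(q)` -/
theorem exists_sl2 (hq : IsPrimePow q) (hK : Fintype.card K = q ^ 3) :
    ∃ f : SpecialLinearGroup (Fin 2) K →* ↥(twistedD4 K q), ∀ g, f g = 1 → g = 1 ∨ g = -1 := by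
  obtain ⟨φ, hφ⟩ := ChevalleyStructure.D4Fixed.exists_frob (K := K) (n := 3) hq hK
  refine ⟨((chevD4.group K).subtype.comp (KTwD4.B φ)).codRestrict (twistedD4 K q) (fun g => KTwD4.B_mem hφ g), ?_⟩
  intro g hg
  refine KTwD4.kerPM_B φ g (Subtype.ext ?_)
  have h1 := congrArg (fun t : ↥(twistedD4 K q) => (t : GL chevD4.Idx K)) hg
  exact h1

/-- **`p ∣ q (q⁶ - 1)`** -/
theorem notMin_td4 (hq : IsPrimePow q) (hK : Fintype.card K = q ^ 3) {p : ℕ} (hp : p.Prime) (hp2 : p ≠ 2)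
    (hd : p ∣ q ∨ p ∣ q ^ 6 - 1) : NotMin p ↥(twistedD4 K q) := by
  obtain ⟨f, hf⟩ := exists_sl2 hq hK
  have hq2 := hq.two_le
  have hK8 : 8 ≤ Fintype.card K := by
    rw [hK]
    calc 8 = 2 ^ 3 := by norm_num
      _ ≤ q ^ 3 := Nat.pow_le_pow_left hq2 3
  have hs : IsSimpleGroup (ProjectiveSpecialLinearGroup (Fin 2) K) :=
    TwoFusion.SLTwoFacts.isSimpleGroup_psl (by omega)
  have hfin : Finite (ProjectiveSpecialLinearGroup (Fin 2) K) := by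
    unfold Matrix.ProjectiveSpecialLinearGroup
    infer_instance
  have hna : ∃ x y : ProjectiveSpecialLinearGroup (Fin 2) K, x * y ≠ y * x := by
    have := Cfsg.Agent.H100.AltSyl.psl_not_comm (ι := Fin 2) (F := K)
    push Not at this
    exact this
  have hcard := Cfsg.Agent.ClassicalGeometry.PSL2Basic.card_PSL2_gcd (F := K)
  have hdT : p ∣ Nat.card (ProjectiveSpecialLinearGroup (Fin 2) K) := by
    have h1 : p ∣ Nat.card (ProjectiveSpecialLinearGroup (Fin 2) K) * Nat.gcd 2 (Fintype.card K - 1) := by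
      rw [hcard, hK]
      rcases hd with h | h
      · exact (dvd_pow h (by norm_num)).mul_right _
      · refine Dvd.dvd.mul_left ?_ _
        rwa [← pow_mul]
    rcases hp.dvd_mul.1 h1 with h | h
    · exact h
    · exact absurd ((Nat.prime_dvd_prime_iff_eq hp Nat.prime_two).1 (h.trans (Nat.gcd_dvd_left _ _))) hp2
  refine NotMin.of_hom_lt hna hp hdT f
    (QuotientGroup.mk' (Subgroup.center (SpecialLinearGroup (Fin 2) K))) (QuotientGroup.mk'_surjective _) ?_ ?_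
  · intro g hg
    rw [MonoidHom.mem_ker] at hg
    rw [QuotientGroup.ker_mk']
    rcases hf g hg with rfl | rfl
    · exact one_mem _
    · rw [Subgroup.mem_center_iff]
      intro h
      rw [mul_neg, neg_mul, mul_one, one_mul]
  · rw [S0276.card_sl_two hK, S1067.result hq hK, ← pow_mul]
    have h1 : 1 ≤ q ^ 2 - 1 := by
      have : 2 ^ 2 ≤ q ^ 2 := Nat.pow_le_pow_left hq2 2
      omega
    have h6 : 0 < q ^ 6 - 1 := by
      have : 2 ^ 6 ≤ q ^ 6 := Nat.pow_le_pow_left hq2 6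
      omega
    have h3 : q ^ 3 < q ^ 12 := Nat.pow_lt_pow_right (by omega) (by norm_num)
    have h8 : 1 ≤ q ^ 8 + q ^ 4 + 1 := by omega
    calc q ^ 3 * (q ^ (3 * 2) - 1) < q ^ 12 * (q ^ 6 - 1) := Nat.mul_lt_mul_of_pos_right h3 h6
      _ = q ^ 12 * 1 * (q ^ 6 - 1) * 1 := by ring
      _ ≤ q ^ 12 * (q ^ 2 - 1) * (q ^ 6 - 1) * (q ^ 8 + q ^ 4 + 1) := by gcongr

theorem lie_td4 (hq : IsPrimePow q) (hK : Fintype.card K = q ^ 3) (r : ℕ) [CharP K r] :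
    IsLieTypeChar r ↥(twistedD4 K q) :=
  Or.inr (Or.inr (Or.inr (Or.inr (Or.inr (Or.inr (Or.inr (Or.inl
    ⟨K, inferInstance, inferInstance, inferInstance, q, hq, Or.inr ⟨hK, ⟨MulEquiv.refl _⟩⟩⟩)))))))

theorem not_dvd_cyc12 {r : ℕ} (hr : r.Prime) (hrq : r ∣ q) :
    ¬ r ∣ ((Polynomial.cyclotomic 12 ℤ).eval (q : ℤ)).natAbs := by
  intro h
  have h1 := Int.natCast_dvd.2 h
  have h2 : (r : ℤ) ∣ (q : ℤ) := Int.natCast_dvd_natCast.2 hrq
  rw [Cfsg.Agent.H378.TwRows.eval_cyc12] at h1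
  have h3 : (r : ℤ) ∣ 1 := by
    have h4 := dvd_sub h1 (Dvd.dvd.mul_left h2 ((q : ℤ) ^ 3 - q))
    have e : (q : ℤ) ^ 4 - q ^ 2 + 1 - (q ^ 3 - q) * q = 1 := by ring
    rwa [e] at h4
  exact hr.one_lt.ne' (Nat.dvd_one.1 (Int.natCast_dvd_natCast.1 (by exact_mod_cast h3)))

/-- the prime of `q` is the characteristic -/
theorem charP_of_dvd (hK : Fintype.card K = q ^ 3) (hq : IsPrimePow q) {r : ℕ} (hr : r.Prime) (hrq : r ∣ q) :
    CharP K r := by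
  obtain ⟨p, hpc⟩ := CharP.exists K
  have hp : p.Prime := CharP.char_is_prime K p
  have hpF : p ∣ Fintype.card K := (CharP.cast_eq_zero_iff K p (Fintype.card K)).1 (by simp)
  rw [hK] at hpF
  have hpq := hp.dvd_of_dvd_pow hpF
  obtain ⟨s, e, hs, he, rfl⟩ := hq
  have h1 := (Nat.prime_dvd_prime_iff_eq hp hs.nat_prime).1 (hp.dvd_of_dvd_pow hpq)
  have h2 := (Nat.prime_dvd_prime_iff_eq hr hs.nat_prime).1 (hr.dvd_of_dvd_pow hrq)
  rw [h2, ← h1]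
  exact hpc

/-- **`p ∣ q⁴ - q² + 1`** -/
theorem trip_td4 (hq : IsPrimePow q) (hK : Fintype.card K = q ^ 3) {p : ℕ} (hp : p.Prime) (hp2 : p ≠ 2)
    (hpG : p ∣ Nat.card ↥(twistedD4 K q)) (hd : (p : ℤ) ∣ pv c12 q) : Trip p ↥(twistedD4 K q) := by
  have hq2 := hq.two_le
  have hcard := S1067.result hq hK
  have hod := Cfsg.Agent.H378.TwRows.od_of_c12 hp hd
  obtain ⟨b, hb, hb3, hb2, hbd⟩ := Cfsg.Agent.H378.ExcNear.exists_three (q := q) hq2
  obtain ⟨r, hr, hrq, y, hy, hyc⟩ := TriDReg.reg_twD4 hq hK hb hb2 hb3 hbd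
  have hchar : CharP K r := charP_of_dvd hK hq hr hrq
  have hpb : p ≠ b := by
    rintro rfl
    have h1 := od_three hb hb3 hbd
    have h2 : orderOf ((q : ℕ) : ZMod p) = 12 := hod
    omega
  have h2G : 2 ∣ Nat.card ↥(twistedD4 K q) := by
    rw [hcard]
    rcases Nat.even_or_odd q with h | h
    · exact (((dvd_pow (even_iff_two_dvd.1 h) (by norm_num)).mul_right _).mul_right _).mul_right _
    · refine ((Dvd.dvd.mul_left ?_ _).mul_right _).mul_right _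
      have h5 : Even (q ^ 2 - 1) := by
        have h6 : Odd (q ^ 2) := h.pow
        obtain ⟨k, hk⟩ := h6
        exact ⟨k, by omega⟩
      exact even_iff_two_dvd.1 h5
  have : Fact p.Prime := ⟨hp⟩
  obtain ⟨x, hx⟩ := exists_prime_orderOf_dvd_card' p hpG
  have hxc : ¬ r ∣ Nat.card ↥(Subgroup.centralizer ({x} : Set ↥(twistedD4 K q))) := fun h =>
    not_dvd_cyc12 hr hrq (h.trans (Cfsg.Agent.H378.TwRows.cent_3D4 hq hK hp hx hod).2)
  exact trip_of_reg hr (lie_td4 hq hK r) (Cfsg.Agent.H80.Fpf.multDvd_of_cyclic one_ne_zero (S2110.result hq hK))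
    (fun s hs hs1 => absurd (Nat.dvd_one.1 hs1) hs.one_lt.ne') hp hb hpb hp2 hb2 h2G (PE.of_orderOf hp hx)
    (PE.of_orderOf hb hy) hxc hyc

/-- **The row `³D₄(q)`.** -/
theorem rowOdd_td4 (hq : IsPrimePow q) (hK : Fintype.card K = q ^ 3) : RowOdd ↥(twistedD4 K q) := by
  intro p hp hp2 hd
  have hd' := hd
  rw [S1067.result hq hK] at hd'
  have h6 : 1 ≤ q ^ 6 := Nat.one_le_pow _ _ hq.pos
  have key : ∀ m : ℤ, (∃ c : ℤ, (q : ℤ) ^ 6 - 1 = m * c) → (p : ℤ) ∣ m → p ∣ q ^ 6 - 1 := by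
    rintro m ⟨c, hc⟩ hm
    have h1 : (p : ℤ) ∣ (q : ℤ) ^ 6 - 1 := by rw [hc]; exact Dvd.dvd.mul_right hm _
    have h2 : ((q ^ 6 - 1 : ℕ) : ℤ) = (q : ℤ) ^ 6 - 1 := by push_cast [Nat.cast_sub h6]; ring
    exact Int.natCast_dvd_natCast.1 (by rw [h2]; exact h1)
  rcases H493.PGD4T.cover hq.two_le hp hd' with (h | h | h | h | h) | h
  · exact Or.inl (notMin_td4 hq hK hp hp2 (Or.inl h))
  · refine Or.inl (notMin_td4 hq hK hp hp2 (Or.inr (key _ ⟨(q + 1) * (q ^ 2 + q + 1) * (q ^ 2 - q + 1), ?_⟩ h)))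
    rw [pv_c1]; ring
  · refine Or.inl (notMin_td4 hq hK hp hp2 (Or.inr (key _ ⟨(q - 1) * (q ^ 2 + q + 1) * (q ^ 2 - q + 1), ?_⟩ h)))
    rw [pv_c2]; ring
  · refine Or.inl (notMin_td4 hq hK hp hp2 (Or.inr (key _ ⟨(q - 1) * (q + 1) * (q ^ 2 - q + 1), ?_⟩ h)))
    rw [pv_c3]; ring
  · refine Or.inl (notMin_td4 hq hK hp hp2 (Or.inr (key _ ⟨(q - 1) * (q + 1) * (q ^ 2 + q + 1), ?_⟩ h)))
    rw [pv_c6]; ring
  · exact Or.inr (trip_td4 hq hK hp hp2 hd h)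

theorem row_3D4 {S : Type u} [Group S] (h : Cfsg.Lie.Iso3D4 S) : RowOdd S := by
  obtain ⟨K, _, _, q, hq, hK, ⟨e⟩⟩ := h
  exact (rowOdd_td4 hq hK).congr e.symm

end Cfsg.Agent.H963.PQR
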